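import Cfsg.Agent.H512.DFive.Cent
import Cfsg.Agent.H318.Four.E6Inv

/-!
# Involutions of `E₆` with `dim [V₂₇, z] = 16` are conjugate to `z0` (helper512, for S1920)
-/

set_option autoImplicit false

namespace Cfsg.Agent.H512.DFive

open Cfsg Cfsg.Lie Matrix
open Cfsg.Agent.ChevalleyStructure.E6Min Cfsg.Agent.ChevalleyStructure.E6Min.Tables
  Cfsg.Agent.ChevalleyStructure.E6Min.Basic Cfsg.Agent.ChevalleyStructure.E6Min.Forms
  Cfsg.Agent.ChevalleyStructure.E6Min.Inv Cfsg.Agent.ChevalleyStructure.E6Min.Elim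
  Cfsg.Agent.ChevalleyStructure.E6Min.Torus Cfsg.Agent.ChevalleyStructure.E6Min.Adjoint
  Cfsg.Agent.ChevalleyStructure.E6Min.Checks2
open Cfsg.Agent.H318.Four Cfsg.Agent.H318.Four.E6Inv

variable {F : Type*} [Field F]

/-- the sign pattern of the involution attached to the weight `i` -/
def sgi (F : Type*) [Field F] (i x : I27) : F := if rel i x = 1 then -1 else 1

theorem tab_pat : (allLt 64 fun n => !(cnt (Xr n 6) 27 == 16) ||
    !(allLt 27 fun i => !(allLt 27 fun y => (Xr n 6).testBit y == (relN i y == 1)))) = true := by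
  decide +kernel

theorem tab_weyl : (allLt 27 fun i => allLt 27 fun j => !(relN i j == 1) || (Nat.blt (rtN i j) 72 &&
    allLt 27 fun x =>
      (!(indN (rtN i j) x == 0) || !(indN (71 - rtN i j) x == 0) || ((relN i x == 1) == (relN j x == 1))) &&
      ((sgN (rtN i j) x == 0) || ((relN i (srN (rtN i j) x) == 1) == (relN j x == 1))) &&
      ((sgN (71 - rtN i j) x == 0) || ((relN i (srN (71 - rtN i j) x) == 1) == (relN j x == 1))))) = true := by
  decide +kernel

/-- one Weyl element -/
theorem weyl_step {i j : I27} (h : rel i j = 1) : ∃ n ∈ Zgrp F,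
    (n : Matrix I27 I27 F) * Matrix.diagonal (sgi F i) = Matrix.diagonal (sgi F j) * (n : Matrix I27 I27 F) := by
  have h1 := allLt_spec (allLt_spec tab_weyl _ (code_lt i)) _ (code_lt j)
  rw [Bool.or_eq_true] at h1
  have h2 := h1.resolve_left (by simp only [Bool.not_eq_true', beq_eq_false_iff_ne]; exact fun h' => h' h)
  rw [Bool.and_eq_true, Nat.blt_eq] at h2
  obtain ⟨hr, h3⟩ := h2
  have hr' : 71 - rtN (code i) (code j) < 72 := by omega
  refine ⟨zU (rtN (code i) (code j)) (1 : F) * zU (71 - rtN (code i) (code j)) (-(1 : F)⁻¹) *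
    zU (rtN (code i) (code j)) 1, mul_mem (mul_mem (zU_mem _ _) (zU_mem _ _)) (zU_mem _ _), ?_⟩
  simp only [Units.val_mul]
  rw [coe_zU hr, coe_zU hr', nM_eq hr one_ne_zero, Nm_mul_opp hr, Nm_opp_mul hr]
  ext x y
  rw [Matrix.mul_diagonal, Matrix.diagonal_mul]
  simp only [Matrix.sub_apply, Matrix.add_apply, Matrix.smul_apply, smul_eq_mul, one_mul, inv_one, Nm_apply,
    Matrix.diagonal_apply, Matrix.one_apply]
  have h4 := allLt_spec h3 _ (code_lt x)
  simp only [Bool.and_eq_true, Bool.or_eq_true, beq_iff_eq, Bool.not_eq_true', beq_eq_false_iff_ne] at h4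
  obtain ⟨⟨a1, a2⟩, a3⟩ := h4
  set r := rtN (code i) (code j) with hrdef
  have key : ∀ (b : Prop) [Decidable b] (t : F), (b → t ≠ 0 → sgi F i y = sgi F j x) →
      (if b then t else 0) * sgi F i y = sgi F j x * (if b then t else 0) := by
    intro b _ t hb
    split_ifs with h'
    · by_cases ht : t = 0
      · rw [ht, zero_mul, mul_zero]
      · rw [hb h' ht, mul_comm]
    · rw [zero_mul, mul_zero]
  have hs : ∀ x' : I27, ((relN (code i) (code x') == 1) = (relN (code j) (code x) == 1)) →
      sgi F i x' = sgi F j x := by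
    intro x' h5
    unfold sgi rel
    by_cases h6 : relN (code i) (code x') = 1
    · have h7 : relN (code j) (code x) = 1 := by
        rw [← beq_iff_eq, ← h5, beq_iff_eq]; exact h6
      rw [if_pos h6, if_pos h7]
    · have h7 : ¬ relN (code j) (code x) = 1 := by
        rw [← beq_iff_eq, ← h5, beq_iff_eq]; exact h6
      rw [if_neg h6, if_neg h7]
  have hN : (if y = sr r x then ((sg r x : ℤ) : F) else 0) * sgi F i y =
      sgi F j x * (if y = sr r x then ((sg r x : ℤ) : F) else 0) := by
    refine key _ _ fun h5 h6 => ?_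
    rw [h5]
    refine hs _ ?_
    rw [code_sr hr]
    refine a2.resolve_left fun h7 => h6 ?_
    have : sg r x = 0 := h7
    rw [this, Int.cast_zero]
  have hN' : (if y = sr (71 - r) x then ((sg (71 - r) x : ℤ) : F) else 0) * sgi F i y =
      sgi F j x * (if y = sr (71 - r) x then ((sg (71 - r) x : ℤ) : F) else 0) := by
    refine key _ _ fun h5 h6 => ?_
    rw [h5]
    refine hs _ ?_
    rw [code_sr hr']
    refine a3.resolve_left fun h7 => h6 ?_
    have : sg (71 - r) x = 0 := h7
    rw [this, Int.cast_zero]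
  have hD : ((if x = y then (1 : F) else 0) - (if x = y then ((ind r x : ℤ) : F) else 0) -
      (if x = y then ((ind (71 - r) x : ℤ) : F) else 0)) * sgi F i y =
      sgi F j x * ((if x = y then (1 : F) else 0) - (if x = y then ((ind r x : ℤ) : F) else 0) -
      (if x = y then ((ind (71 - r) x : ℤ) : F) else 0)) := by
    by_cases hxy : x = y
    swap
    · simp [hxy]
    subst hxy
    rw [if_pos rfl, if_pos rfl, if_pos rfl]
    by_cases b1 : ind r x = 0
    · by_cases b2 : ind (71 - r) x = 0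
      · rw [hs x ?_, mul_comm]
        rcases a1 with (a1 | a1) | a1
        · exact absurd b1 a1
        · exact absurd b2 a1
        · exact a1
      · have b3 : ind (71 - r) x = 1 := by
          have := b2
          unfold ind indN at this ⊢
          split_ifs at this ⊢ <;> first | rfl | exact absurd rfl this
        rw [b1, b3]; simp
    · have b3 : ind r x = 1 := by
        have := b1
        unfold ind indN at this ⊢
        split_ifs at this ⊢ <;> first | rfl | exact absurd rfl this
      by_cases b2 : ind (71 - r) x = 0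
      · rw [b2, b3]; simp
      · exfalso
        -- both non-zero is impossible
        have h6 : sg r x ≠ 0 := by
          intro h; exact b1 (ind_of_eq h)
        have h7 : sg (71 - r) x ≠ 0 := by
          intro h; exact b2 (ind_of_eq h)
        exact h7 (row_opp hr h6).2.2
  linear_combination hD + hN - hN'

theorem tab_two : (allLt 27 fun i => (i == 0) || (relN i 0 == 1) ||
    [1, 2, 3, 6, 12, 13, 14, 15, 16, 17, 19, 20, 22, 23, 25, 26].any fun j =>
      (relN i j == 1) && (relN j 0 == 1)) = true := by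
  decide +kernel

/-- every sign pattern is conjugate to the one of the first weight -/
theorem weyl_conj (i : I27) : ∃ n ∈ Zgrp F,
    (n : Matrix I27 I27 F) * Matrix.diagonal (sgi F i) = Matrix.diagonal (sgi F i0) * (n : Matrix I27 I27 F) := by
  have h := allLt_spec tab_two _ (code_lt i)
  simp only [Bool.or_eq_true, Bool.and_eq_true, beq_iff_eq, List.any_eq_true] at h
  rcases h with (h | h) | ⟨j, hj, h1, h3⟩
  · have : i = i0 := code_injective (by rw [h, code_i0])
    refine ⟨1, one_mem _, ?_⟩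
    rw [this, Units.val_one, one_mul, mul_one]
  · refine weyl_step ?_
    unfold rel
    rw [code_i0]
    exact h
  · have hc : code (dec j) = j := code_dec (by
      have : ∀ j ∈ [1, 2, 3, 6, 12, 13, 14, 15, 16, 17, 19, 20, 22, 23, 25, 26], j < 27 := by decide
      exact this j hj)
    obtain ⟨n, hn, e1⟩ := weyl_step (F := F) (i := i) (j := dec j) (by unfold rel; rw [hc]; exact h1)
    obtain ⟨m, hm, e2⟩ := weyl_step (F := F) (i := dec j) (j := i0) (by unfold rel; rw [hc, code_i0]; exact h3)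
    refine ⟨m * n, mul_mem hm hn, ?_⟩
    rw [Units.val_mul, mul_assoc, e1, ← mul_assoc, e2, mul_assoc]

theorem coe_z0 : ((z0 F : GL I27 F) : Matrix I27 I27 F) = Matrix.diagonal (sgi F i0) := by
  apply Matrix.toLin'.injective
  refine LinearMap.ext fun x => ?_
  rw [Matrix.toLin'_apply, Matrix.toLin'_apply, z0_mulVec]
  funext y
  rw [Matrix.mulVec_diagonal]
  show x y - 2 * p16 x y = _
  unfold sgi p16
  rw [← ty_eq]
  split_ifs
  · ring
  · ring

/-- **Involutions with `dim [V₂₇, z] = 16`.** -/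
theorem conj_z0 {F : Type} [Field F] [Fintype F] (ho : Odd (Fintype.card F)) (h2 : (2 : F) ≠ 0) {g : Zgrp F}
    (hgg : g * g = 1) (hrk : (((g : GL I27 F) : Matrix I27 I27 F) - 1).rank = 16) :
    ∃ x : Zgrp F, ((x * g * x⁻¹ : Zgrp F) : GL I27 F) = z0 F := by
  classical
  have ht : ad F g * ad F g = 1 := by rw [← map_mul, hgg, map_one]
  obtain ⟨y, hy⟩ := E6Tor.toral_E6 F ho ht
  obtain ⟨x, rfl⟩ := ad_surjective y
  have hs : ((ad F (x * g * x⁻¹) : ↥(chevE6.group F)) : GL chevE6.Idx F) ∈ chevE6.diagonalSubgroup F := by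
    rw [map_mul, map_mul, map_inv]
    exact Subgroup.mem_subgroupOf.1 hy
  have hss : (x * g * x⁻¹) * (x * g * x⁻¹) = 1 := by
    rw [show (x * g * x⁻¹) * (x * g * x⁻¹) = x * (g * g) * x⁻¹ by group, hgg, mul_one, mul_inv_cancel]
  obtain ⟨c, hc⟩ := Cfsg.Agent.H351.SpSix.RankE8.exists_dmat' chevE6 (by simp) _ hs
  have hcomm : ∀ i < 6, (((x * g * x⁻¹ : Zgrp F) : GL I27 F) : Matrix I27 I27 F) * Hm F i =
      Hm F i * (((x * g * x⁻¹ : Zgrp F) : GL I27 F) : Matrix I27 I27 F) := by
    intro i hi
    have h1 := (P_def _ _).1 (ad_P (x * g * x⁻¹)) (Sum.inl ⟨i, hi⟩)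
    rw [B_inl, hc, comb_def, Finset.sum_eq_single (Sum.inl ⟨i, hi⟩)] at h1
    · rw [h1, B_inl, ChevalleyStructure.HDiag.dmat_def, Matrix.diagonal_apply_eq]
      show ((1 : F) • Hm F i) * _ = _
      rw [one_smul]
    · intro row _ hrow
      rw [ChevalleyStructure.HDiag.dmat_def, Matrix.diagonal_apply_ne _ hrow, zero_smul]
    · intro h; exact absurd (Finset.mem_univ _) h
  have h4 : (((x * g * x⁻¹ : Zgrp F) : GL I27 F) : Matrix I27 I27 F) - 1 =
      ((x : GL I27 F) : Matrix I27 I27 F) * ((((g : GL I27 F) : Matrix I27 I27 F) - 1) *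
          (((x : GL I27 F)⁻¹ : GL I27 F) : Matrix I27 I27 F)) := by
    rw [Matrix.sub_mul, Matrix.mul_sub, one_mul, ← Units.val_mul (x : GL I27 F), mul_inv_cancel, Units.val_one,
      ← Units.val_mul, ← Units.val_mul, ← mul_assoc]
    rfl
  have hd : ∀ x : GL I27 F, IsUnit (x : Matrix I27 I27 F).det := fun x =>
    (Matrix.isUnit_iff_isUnit_det _).1 x.isUnit
  have h5 : ((((x * g * x⁻¹ : Zgrp F) : GL I27 F) : Matrix I27 I27 F) - 1).rank = 16 := by
    rw [h4, Matrix.rank_mul_eq_right_of_isUnit_det _ _ (hd _), Matrix.rank_mul_eq_left_of_isUnit_det _ _ (hd _), hrk]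
  -- the diagonal form
  obtain ⟨g', hg'⟩ : ∃ g' : GL I27 F, g' = ((x * g * x⁻¹ : Zgrp F) : GL I27 F) := ⟨_, rfl⟩
  have hgm : g' ∈ Zgrp F := by rw [hg']; exact (x * g * x⁻¹).2
  have hgg' : g' * g' = 1 := by rw [hg']; exact congrArg Subtype.val hss
  rw [← hg'] at hcomm h5
  obtain ⟨d, hd⟩ : ∃ d : I27 → F, ∀ x, d x = (g' : Matrix I27 I27 F) x x := ⟨_, fun _ => rfl⟩
  have hgd : (g' : Matrix I27 I27 F) = Matrix.diagonal d := by
    ext x y
    by_cases hxy : x = y
    · subst hxy; rw [Matrix.diagonal_apply_eq, hd]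
    · rw [Matrix.diagonal_apply_ne _ hxy]; exact diag_of_comm h2 hcomm hxy
  have he : ∀ x, (g' : Matrix I27 I27 F) *ᵥ e F x = d x • e F x := by
    intro x
    rw [hgd]
    funext y
    rw [Matrix.mulVec_diagonal, e_apply, Pi.smul_apply, e_apply]
    by_cases h : y = x
    · rw [if_pos h, h, smul_eq_mul]
    · rw [if_neg h, mul_zero, smul_zero]
  have hdd : ∀ x, d x * d x = 1 := by
    intro x
    have h1 := congrArg (fun g : GL I27 F => (g : Matrix I27 I27 F) x x) hgg'
    simp only [Units.val_mul, Units.val_one, hgd, Matrix.diagonal_mul_diagonal, Matrix.diagonal_apply_eq,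
      Matrix.one_apply_eq] at h1
    exact h1
  obtain ⟨n, hn, hsn⟩ := exists_signs hdd fun m k h => diag_rel (Zgrp_le F hgm) he h
  have hmat : (g' : Matrix I27 I27 F) - 1 =
      Matrix.diagonal (fun x => if (Xr n 6).testBit (code x) then (-2 : F) else 0) := by
    rw [hgd, ← Matrix.diagonal_one, Matrix.diagonal_sub]
    congr 1
    funext x
    rw [hsn x]
    cases (Xr n 6).testBit (code x)
    · simp [sb]
    · simp only [sb, if_true]; ring
  have hcard : ((g' : Matrix I27 I27 F) - 1).rank = cnt (Xr n 6) 27 := by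
    rw [hmat, Matrix.rank_diagonal, cnt_eq, Fintype.card_subtype]
    symm
    refine Finset.card_bij (fun s _ => dec s) ?_ ?_ ?_
    · intro s hs
      rw [Finset.mem_filter, Finset.mem_range] at hs
      rw [Finset.mem_filter]
      refine ⟨Finset.mem_univ _, ?_⟩
      rw [code_dec hs.1, if_pos hs.2]
      exact neg_ne_zero.2 h2
    · intro s hs s' hs' h
      rw [Finset.mem_filter, Finset.mem_range] at hs hs'
      rw [← code_dec hs.1, ← code_dec hs'.1, h]
    · intro x hx
      rw [Finset.mem_filter] at hx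
      refine ⟨code x, ?_, dec_code x⟩
      rw [Finset.mem_filter, Finset.mem_range]
      refine ⟨code_lt x, ?_⟩
      by_contra h4
      exact hx.2 (if_neg h4)
  rw [hcard] at h5
  have h6 := allLt_spec tab_pat n hn
  rw [Bool.or_eq_true] at h6
  have h7 := h6.resolve_left (by simp only [Bool.not_eq_true', beq_eq_false_iff_ne]; exact fun h => h h5)
  obtain ⟨i, hi, h8⟩ := not_allLt h7
  rw [Bool.not_eq_false'] at h8
  have hdi : d = sgi F (dec i) := by
    funext y
    rw [hsn y]
    have h9 := allLt_spec h8 _ (code_lt y)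
    rw [beq_iff_eq] at h9
    rw [h9]
    unfold sgi rel sb
    rw [code_dec hi]
    by_cases h10 : relN i (code y) = 1
    · simp [h10]
    · simp [h10]
  obtain ⟨m, hm, hmd⟩ := weyl_conj (F := F) (dec i)
  refine ⟨⟨m, hm⟩ * x, ?_⟩
  have h11 : m * g' = z0 F * m := by
    apply Units.ext
    rw [Units.val_mul, Units.val_mul, hgd, hdi, hmd, coe_z0]
  have h12 : (((⟨m, hm⟩ * x : Zgrp F) * g * (⟨m, hm⟩ * x : Zgrp F)⁻¹ : Zgrp F) : GL I27 F) = m * g' * m⁻¹ := by
    rw [hg']
    show m * (x : GL I27 F) * (g : GL I27 F) * (m * (x : GL I27 F))⁻¹ =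
      m * ((x : GL I27 F) * (g : GL I27 F) * (x : GL I27 F)⁻¹) * m⁻¹
    group
  rw [h12, h11, mul_inv_cancel_right]

end Cfsg.Agent.H512.DFive
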