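import Cfsg.Agent.H512.DFive.Lift

/-!
# The centraliser of the involution `z0` of `E₆` (helper512, for S1920)

* `cent_act` : an isometry `g` of `T` commuting with `z0` acts on the parts: `g e₀ = a e₀`, `g V₁₀ = V₁₀`,
  `a B(g w, g w') = B(w, w')`;
* `cent_ker` : if `g` is trivial on the 10-dimensional part then `g = 1` or `g = z0`.
-/

set_option autoImplicit false

namespace Cfsg.Agent.H512.DFive

open Cfsg Cfsg.Lie Matrix
open Cfsg.Agent.ChevalleyStructure.E6Min Cfsg.Agent.ChevalleyStructure.E6Min.Tables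
  Cfsg.Agent.ChevalleyStructure.E6Min.Basic Cfsg.Agent.ChevalleyStructure.E6Min.Forms
  Cfsg.Agent.ChevalleyStructure.E6Min.Inv Cfsg.Agent.ChevalleyStructure.E6Min.Elim

variable {F : Type*} [Field F]

theorem cent_p16 (h2 : (2 : F) ≠ 0) {g : GL I27 F} (hz : g * z0 F = z0 F * g) (x : I27 → F) :
    p16 ((g : Matrix I27 I27 F) *ᵥ x) = (g : Matrix I27 I27 F) *ᵥ p16 x := by
  have h1 : ((g : Matrix I27 I27 F) * (z0 F : Matrix I27 I27 F)) *ᵥ x =
      ((z0 F : Matrix I27 I27 F) * (g : Matrix I27 I27 F)) *ᵥ x := by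
    have := congrArg (fun y : GL I27 F => (y : Matrix I27 I27 F) *ᵥ x) hz
    exact this
  rw [← Matrix.mulVec_mulVec, ← Matrix.mulVec_mulVec, z0_mulVec, z0_mulVec, Matrix.mulVec_sub, Matrix.mulVec_smul] at h1
  have h3 : (2 : F) • p16 ((g : Matrix I27 I27 F) *ᵥ x) = (2 : F) • ((g : Matrix I27 I27 F) *ᵥ p16 x) := by
    rw [sub_right_inj] at h1
    exact h1.symm
  exact smul_right_injective _ h2 h3

theorem BB_zero_right (w : I27 → F) : BB w 0 = 0 := by rw [BB_symm, BB_zero_left]

/-- the trilinear form on the sum of the parts of dimension 1 and 10 -/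
theorem T3_plus (a b c : F) {u v w : I27 → F} (hu : p10 u = u) (hv : p10 v = v) (hw : p10 w = w) :
    T3 (a • e F i0 + u) (b • e F i0 + v) (c • e F i0 + w) = a * BB v w + b * BB u w + c * BB u v := by
  have e0 : ∀ x y : I27 → F, T3 (e F i0) x y = BB x y := T3_e0
  have et : til (e F i0) = 0 := til_e_zero (by rw [ty_i0]; norm_num)
  have f1 : ∀ x : I27 → F, BB (e F i0) x = 0 := fun x => by unfold BB; rw [et, zero_dotProduct]
  have f2 : ∀ x : I27 → F, BB x (e F i0) = 0 := fun x => by rw [BB_symm, f1]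
  have h3 : T3 u v w = 0 := by
    rw [T3_eq, ← hu, ← hv, cr_ten, smul_dotProduct, ← hw]
    unfold e
    rw [single_dotProduct, one_mul]
    simp [p10, ty_i0]
  have addr : ∀ x y y' z : I27 → F, T3 x (y + y') z = T3 x y z + T3 x y' z := fun x y y' z => by
    rw [T3_swap, T3_add_left, T3_swap y, T3_swap y']
  have addz : ∀ x y z z' : I27 → F, T3 x y (z + z') = T3 x y z + T3 x y z' := fun x y z z' => by
    rw [T3_rot, T3_rot, T3_add_left, T3_rot, T3_rot z']
  have smr : ∀ (c : F) (x y z : I27 → F), T3 x (c • y) z = c * T3 x y z := fun c x y z => by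
    rw [T3_swap, T3_smul_left, T3_swap]
  simp only [T3_add_left, addr, addz, T3_smul_left, smr, T3_smul_right, e0, f1, f2, h3]
  have g1 : T3 u (e F i0) w = BB u w := by rw [T3_swap, e0]
  have g2 : T3 u (e F i0) (e F i0) = 0 := by rw [T3_swap, e0, f2]
  have g3 : T3 u v (e F i0) = BB u v := by rw [← T3_rot, e0]
  rw [g1, g2, g3]
  ring

/-- non-degeneracy -/
theorem eq_zero_of_BB {u : I27 → F} (hu : p10 u = u) (h : ∀ w, p10 w = w → BB u w = 0) : u = 0 := by
  have h1 : til u = 0 := by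
    funext x
    by_cases hx : ty x = 2
    · have := h (e F x) (by rw [p10_e, if_pos hx])
      unfold BB e at this
      rw [dotProduct_single, mul_one] at this
      exact this
    · simp [til, hx]
  rw [← hu, ← til_til, h1]
  funext x
  simp [til]

/-- the hyperbolic vectors -/
def hv (F : Type*) [Field F] (k : ℕ) : I27 → F := e F (dec k) + e F (opp (dec k))

theorem hv_spec {k l : ℕ} (hk : ty (dec k) = 2) (hl : ty (dec l) = 2) (hne : dec k ≠ dec l)
    (hne2 : dec k ≠ opp (dec l)) :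
    p10 (hv F k) = hv F k ∧ BB (hv F k) (hv F k) = 2 * ((sgm (dec k) : ℤ) : F) ∧ BB (hv F k) (hv F l) = 0 := by
  obtain ⟨a1, a2, a3, -, a5⟩ := opp_spec hk
  obtain ⟨b1, b2, b3, -, b5⟩ := opp_spec hl
  unfold hv
  refine ⟨?_, ?_, ?_⟩
  · rw [p10_add, p10_e, p10_e, if_pos hk, if_pos a1]
  · rw [BB_add_left, BB_add_right, BB_add_right, BB_e hk, BB_e hk, BB_e a1, BB_e a1, a2, a3, if_neg a5.symm,
      if_pos rfl, if_pos rfl, if_neg a5]
    ring
  · have c1 : dec l ≠ opp (dec k) := fun h => hne2 (by rw [h, a2])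
    have c2 : opp (dec l) ≠ opp (dec k) := fun h => hne (by rw [← a2, ← h, b2])
    rw [BB_add_left, BB_add_right, BB_add_right, BB_e hk, BB_e hk, BB_e a1, BB_e a1, a2, if_neg c1, if_neg c2,
      if_neg hne.symm, if_neg (fun h => hne2 h.symm)]
    ring

/-- the relation of three ratios -/
theorem no_three (h2 : (2 : F) ≠ 0) {p r : Fin 3 → F} (h : ∀ i, p i * r i ≠ 0)
    (h' : ∀ i j, i ≠ j → p i * r j + p j * r i = 0) : False := by
  have h01 := h' 0 1 (by decide)
  have h02 := h' 0 2 (by decide)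
  have h12 := h' 1 2 (by decide)
  have p0 := left_ne_zero_of_mul (h 0)
  have r0 := right_ne_zero_of_mul (h 0)
  have p1 := left_ne_zero_of_mul (h 1)
  have p2 := left_ne_zero_of_mul (h 2)
  -- `p0 r1 = - p1 r0`, `p0 r2 = - p2 r0`, `p1 r2 = - p2 r1`
  have e1 : p 0 * (p 1 * r 2 + p 2 * r 1) = -(2 * (p 1 * p 2 * r 0)) := by
    linear_combination p 1 * h02 + p 2 * h01
  rw [h12, mul_zero] at e1
  exact mul_ne_zero h2 (mul_ne_zero (mul_ne_zero p1 p2) r0) (neg_eq_zero.1 e1.symm)

/-- **The action of the centraliser of `z0`.** -/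
theorem cent_act (h2 : (2 : F) ≠ 0) {g : GL I27 F} (hg : g ∈ E6univ F) (hz : g * z0 F = z0 F * g) :
    ∃ a : F, a ≠ 0 ∧ (g : Matrix I27 I27 F) *ᵥ e F i0 = a • e F i0 ∧
      (∀ w, p10 w = w → p10 ((g : Matrix I27 I27 F) *ᵥ w) = (g : Matrix I27 I27 F) *ᵥ w) ∧
      (∀ w w', p10 w = w → p10 w' = w' →
        a * BB ((g : Matrix I27 I27 F) *ᵥ w) ((g : Matrix I27 I27 F) *ᵥ w') = BB w w') := by
  set M : Matrix I27 I27 F := (g : Matrix I27 I27 F) with hM
  have hp16 : ∀ x, p16 x = 0 → p16 (M *ᵥ x) = 0 := fun x hx => by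
    rw [hM, cent_p16 h2 hz, hx, Matrix.mulVec_zero]
  have hdec : ∀ x, p16 x = 0 → M *ᵥ x = (M *ᵥ x) i0 • e F i0 + p10 (M *ᵥ x) := fun x hx => by
    conv_lhs => rw [decomp (M *ᵥ x)]
    rw [hp16 x hx, add_zero]
  have h16e : p16 (e F i0) = 0 := by rw [p16_e, ty_i0, if_neg (by norm_num)]
  have h1610 : ∀ w : I27 → F, p10 w = w → p16 w = 0 := fun w hw => by
    rw [← hw]; funext i; simp only [p10, p16]
    split_ifs with a b
    · omega
    · rfl
    · rfl
  have hinv : ∀ x : I27 → F, M *ᵥ (((g⁻¹ : GL I27 F) : Matrix I27 I27 F) *ᵥ x) = x := fun x => by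
    rw [Matrix.mulVec_mulVec, hM, ← Units.val_mul, mul_inv_cancel, Units.val_one, Matrix.one_mulVec]
  -- the image of `e`
  obtain ⟨a, u, hu, hae⟩ : ∃ (a : F) (u : I27 → F), p10 u = u ∧ M *ᵥ e F i0 = a • e F i0 + u :=
    ⟨_, _, p10_p10 _, hdec _ h16e⟩
  have hr1 : ∀ x, T3 (M *ᵥ e F i0) (M *ᵥ e F i0) x = 0 := by
    intro x
    rw [← hinv x, T3_inv hg, T3_e0]
    unfold BB
    rw [til_e_zero (by rw [ty_i0]; norm_num), zero_dotProduct]
  have hr2 : ∀ w, p10 w = w → 2 * (a * BB u w) = 0 := by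
    intro w hw
    have h3 := hr1 ((0 : F) • e F i0 + w)
    rw [hae, T3_plus a a 0 hu hu hw] at h3
    linear_combination h3
  have ha : a ≠ 0 := by
    intro ha
    rw [ha, zero_smul, zero_add] at hae
    have key : ∀ w w', p10 w = w → p10 w' = w' →
        BB w w' = (M *ᵥ w) i0 * BB u (M *ᵥ w') + (M *ᵥ w') i0 * BB u (M *ᵥ w) := by
      intro w w' hw hw'
      rw [← T3_e0 w w', ← T3_inv hg (e F i0) w w', ← hM, hae, hdec w (h1610 w hw), hdec w' (h1610 w' hw')]
      have h4 := T3_plus (0 : F) ((M *ᵥ w) i0) ((M *ᵥ w') i0) hu (p10_p10 (M *ᵥ w)) (p10_p10 (M *ᵥ w'))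
      rw [zero_smul, zero_add] at h4
      rw [h4, zero_mul, zero_add]
      have h5 : ∀ y : I27 → F, BB u (p10 y) = BB u y := fun y => by rw [← BB_p10 u y, hu]
      have h6 : ∀ y : I27 → F, ∀ t : F, BB u (t • e F i0 + p10 y) = BB u (p10 y) := fun y t => by
        rw [BB_add_right, BB_smul_right, BB_symm u (e F i0)]
        unfold BB
        rw [til_e_zero (by rw [ty_i0]; norm_num), zero_dotProduct, mul_zero, zero_add]
      have h7 : ∀ y : I27 → F, ∀ t : F, (t • e F i0 + p10 y) i0 = t := fun y t => by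
        simp [e_apply, p10, ty_i0]
      rw [h6, h6, h7, h7]
    have t4 : ty (dec 4) = 2 := by decide +kernel
    have t5 : ty (dec 5) = 2 := by decide +kernel
    have t9 : ty (dec 9) = 2 := by decide +kernel
    have q1 : (dec 4 ≠ dec 5 ∧ dec 4 ≠ opp (dec 5)) ∧ (dec 4 ≠ dec 9 ∧ dec 4 ≠ opp (dec 9)) ∧
        (dec 5 ≠ dec 9 ∧ dec 5 ≠ opp (dec 9)) ∧ (dec 9 ≠ dec 4 ∧ dec 9 ≠ opp (dec 4)) := by decide +kernel
    obtain ⟨⟨a1, a2⟩, ⟨b1, b2⟩, ⟨c1, c2⟩, ⟨d1, d2⟩⟩ := q1
    obtain ⟨x1, x2, x3⟩ := hv_spec (F := F) t4 t5 a1 a2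
    obtain ⟨-, -, y3⟩ := hv_spec (F := F) t4 t9 b1 b2
    obtain ⟨y1, y2, w3⟩ := hv_spec (F := F) t5 t9 c1 c2
    obtain ⟨w1, w2, -⟩ := hv_spec (F := F) t9 t4 d1 d2
    have sg : ∀ k : ℕ, ((sgm (dec k) : ℤ) : F) ≠ 0 := fun k => by unfold sgm; exact tsN_ne_zero _
    refine no_three h2 (p := ![(M *ᵥ hv F 4) i0, (M *ᵥ hv F 5) i0, (M *ᵥ hv F 9) i0])
      (r := ![BB u (M *ᵥ hv F 4), BB u (M *ᵥ hv F 5), BB u (M *ᵥ hv F 9)]) ?_ ?_
    · intro i hi
      have h5 : ∀ k, p10 (hv F k) = hv F k → (M *ᵥ hv F k) i0 * BB u (M *ᵥ hv F k) = 0 →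
          BB (hv F k) (hv F k) = 0 := fun k hk h => by
        rw [key _ _ hk hk, h, add_zero]
      fin_cases i
      · exact mul_ne_zero h2 (sg 4) (x2.symm.trans (h5 4 x1 hi))
      · exact mul_ne_zero h2 (sg 5) (y2.symm.trans (h5 5 y1 hi))
      · exact mul_ne_zero h2 (sg 9) (w2.symm.trans (h5 9 w1 hi))
    · intro i j hij
      have k1 := (key _ _ x1 y1).symm.trans x3
      have k2 := (key _ _ x1 w1).symm.trans y3
      have k3 := (key _ _ y1 w1).symm.trans w3
      fin_cases i <;> fin_cases j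
      · exact absurd rfl hij
      · exact k1
      · exact k2
      · rw [add_comm]; exact k1
      · exact absurd rfl hij
      · exact k3
      · rw [add_comm]; exact k2
      · rw [add_comm]; exact k3
      · exact absurd rfl hij
  have hu0 : u = 0 := eq_zero_of_BB hu fun w hw => by
    have := hr2 w hw
    exact (mul_eq_zero.1 ((mul_eq_zero.1 this).resolve_left h2)).resolve_left ha
  rw [hu0, add_zero] at hae
  -- the form
  have hform : ∀ w w', p10 w = w → p10 w' = w' → a * BB (p10 (M *ᵥ w)) (p10 (M *ᵥ w')) = BB w w' := by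
    intro w w' hw hw'
    rw [← T3_e0 w w', ← T3_inv hg (e F i0) w w', ← hM, hae, hdec w (h1610 w hw), hdec w' (h1610 w' hw')]
    have h4 := T3_plus a ((M *ᵥ w) i0) ((M *ᵥ w') i0) (u := 0) (by funext x; simp [p10]) (p10_p10 (M *ᵥ w))
      (p10_p10 (M *ᵥ w'))
    rw [add_zero, BB_zero_left, BB_zero_left, mul_zero, mul_zero, add_zero, add_zero] at h4
    rw [h4]
    have h7 : ∀ y : I27 → F, ∀ t : F, p10 (t • e F i0 + p10 y) = p10 y := fun y t => by
      rw [p10_add, p10_smul, p10_e, ty_i0, if_neg (by norm_num), smul_zero, zero_add, p10_p10]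
    rw [h7, h7]
  have hbeta : ∀ w, p10 w = w → (M *ᵥ w) i0 = 0 := by
    intro w hw
    by_cases hww : BB w w = 0
    · by_cases hw0 : w = 0
      · rw [hw0, Matrix.mulVec_zero]; rfl
      obtain ⟨w', hw', hne⟩ : ∃ w', p10 w' = w' ∧ BB w w' ≠ 0 := by
        by_contra hcon
        push Not at hcon
        exact hw0 (eq_zero_of_BB hw hcon)
      have h3 : T3 (M *ᵥ w) (M *ᵥ w) (M *ᵥ w') = 0 := by
        rw [T3_inv hg]
        have := T3_plus (0 : F) 0 0 hw hw hw'
        rw [zero_smul, zero_add, zero_add] at this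
        rw [this]
        ring
      rw [hdec w (h1610 w hw), hdec w' (h1610 w' hw'), T3_plus _ _ _ (p10_p10 _) (p10_p10 _) (p10_p10 _)] at h3
      have h4 := hform w w' hw hw'
      have h5 := hform w w hw hw
      rw [hww] at h5
      have h6 : BB (p10 (M *ᵥ w)) (p10 (M *ᵥ w)) = 0 := (mul_eq_zero.1 h5).resolve_left ha
      have h7 : BB (p10 (M *ᵥ w)) (p10 (M *ᵥ w')) ≠ 0 := by
        intro h; rw [h, mul_zero] at h4; exact hne h4.symm
      have h9 : ∀ (y y' : I27 → F), (y i0 • e F i0 + p10 y) i0 = y i0 := fun y _ => by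
        simp [e_apply, p10, ty_i0]
      rw [h6, mul_zero, add_zero] at h3
      have h8 : 2 * ((M *ᵥ w) i0 * BB (p10 (M *ᵥ w)) (p10 (M *ᵥ w'))) = 0 := by
        linear_combination h3
      exact (mul_eq_zero.1 ((mul_eq_zero.1 h8).resolve_left h2)).resolve_right h7
    · have h3 : 2 * cubicT (M *ᵥ w) = 2 * cubicT w := by rw [(mem_E6univ_iff g).1 hg w]
      rw [two_cubicT, two_cubicT, h1610 w hw, hp16 w (h1610 w hw)] at h3
      have h4 : ∀ y : I27 → F, T3 y 0 0 = 0 := fun y => by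
        have := T3_smul_right (0 : F) y 0 0
        rwa [zero_smul, zero_mul] at this
      have h5 : w i0 = 0 := by rw [← hw]; simp [p10, ty_i0]
      rw [h4, h4, h5, zero_mul, add_zero, add_zero, ← BB_p10] at h3
      have h6 := hform w w hw hw
      rcases mul_eq_zero.1 h3 with h7 | h7
      · exact h7
      · exfalso
        rw [h7, mul_zero] at h6
        exact hww h6.symm
  have hten : ∀ w, p10 w = w → p10 (M *ᵥ w) = M *ᵥ w := by
    intro w hw
    conv_rhs => rw [hdec w (h1610 w hw)]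
    rw [hbeta w hw, zero_smul, zero_add]
  refine ⟨a, ha, hae, hten, fun w w' hw hw' => ?_⟩
  have := hform w w' hw hw'
  rwa [hten w hw, hten w' hw'] at this

/-! ### the kernel -/

theorem tab_sep : (allLt 27 fun x => !(relN 0 x == 1) || allLt 27 fun y => !(relN 0 y == 1) || (x == y) ||
    !(allLt 27 fun k => !(relN 0 k == 2) || !(relN k x == 1) || !(relN k y == 2))) = true := by
  decide +kernel

/-- paths of length 1 or 2 from the coordinate 1 -/
theorem tab_path : (allLt 27 fun x => !(relN 0 x == 1) || (relN 1 x == 2) ||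
    [3, 6, 12, 13, 14].any fun a => relN a x == 2) = true := by
  decide +kernel

theorem tab_th1 : (allLt 27 fun x => allLt 27 fun y => !(relN 0 x == 1) || !(relN 0 y == 1) || !(relN x y == 2) ||
    (relN 0 (thN x y) == 2)) = true := by
  decide +kernel

theorem not_allLt' {n : ℕ} {p : ℕ → Bool} (h : (!(allLt n p)) = true) : ∃ k < n, p k = false := not_allLt h

/-- **The kernel of the action on the 10-dimensional part.** -/
theorem cent_ker (h2 : (2 : F) ≠ 0) {g : GL I27 F} (hg : g ∈ E6univ F) (hz : g * z0 F = z0 F * g)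
    (hten : ∀ w, p10 w = w → (g : Matrix I27 I27 F) *ᵥ w = w) : g = 1 ∨ g = z0 F := by
  obtain ⟨a, ha, hae, -, hform⟩ := cent_act h2 hg hz
  set M : Matrix I27 I27 F := (g : Matrix I27 I27 F) with hM
  have t4 : ty (dec 4) = 2 := by decide +kernel
  have t5 : ty (dec 5) = 2 := by decide +kernel
  have q1 : dec 4 ≠ dec 5 ∧ dec 4 ≠ opp (dec 5) := by decide +kernel
  obtain ⟨x1, x2, -⟩ := hv_spec (F := F) t4 t5 q1.1 q1.2
  have sg : ∀ k : ℕ, ((sgm (dec k) : ℤ) : F) ≠ 0 := fun k => by unfold sgm; exact tsN_ne_zero _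
  have ha1 : a = 1 := by
    have h3 := hform _ _ x1 x1
    rw [hten _ x1, x2] at h3
    have h4 : (2 : F) * ((sgm (dec 4) : ℤ) : F) ≠ 0 := mul_ne_zero h2 (sg 4)
    have h5 : (a - 1) * ((2 : F) * ((sgm (dec 4) : ℤ) : F)) = 0 := by linear_combination h3
    exact sub_eq_zero.1 ((mul_eq_zero.1 h5).resolve_right h4)
  rw [ha1, one_smul] at hae
  have hp16 := cent_p16 h2 hz
  rw [← hM] at hp16
  -- coordinates of the images of the basis vectors of type 1
  have hcoord : ∀ x : I27, ty x = 1 → ∀ y : I27, y ≠ x → (M *ᵥ e F x) y = 0 := by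
    intro x hx y hyx
    have h16 : p16 (M *ᵥ e F x) = M *ᵥ e F x := by rw [hp16, p16_e, if_pos hx]
    by_cases hy : ty y = 1
    swap
    · rw [← h16]; simp [p16, hy]
    have h3 := allLt_spec tab_sep _ (code_lt x)
    rw [Bool.or_eq_true] at h3
    have h4 := h3.resolve_left (by simp only [Bool.not_eq_true', beq_eq_false_iff_ne]; exact fun h => h hx)
    have h5 := allLt_spec h4 _ (code_lt y)
    rw [Bool.or_eq_true, Bool.or_eq_true] at h5
    have h6 := (h5.resolve_left (by
      simp only [Bool.not_eq_true', beq_eq_false_iff_ne, beq_iff_eq, not_or]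
      exact ⟨fun h => h hy, fun h => hyx (code_injective h.symm)⟩))
    obtain ⟨k, hk, h7⟩ := not_allLt h6
    simp only [Bool.or_eq_false_iff, Bool.not_eq_false', beq_iff_eq] at h7
    obtain ⟨⟨h8, h9⟩, h10⟩ := h7
    have hck : code (dec k) = k := code_dec hk
    have hk2 : ty (dec k) = 2 := by unfold ty; rw [hck]; exact h8
    have hkx : rel (dec k) x = 1 := by unfold rel; rw [hck]; exact h9
    have hky : rel (dec k) y = 2 := by unfold rel; rw [hck]; exact h10
    -- `e_k × e_x = 0`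
    have h11 : T3 (e F (dec k)) (M *ᵥ e F x) (M *ᵥ (((g⁻¹ : GL I27 F) : Matrix I27 I27 F) *ᵥ e F (th (dec k) y))) = 0 := by
      have h12 := T3_inv hg (e F (dec k)) (e F x) (((g⁻¹ : GL I27 F) : Matrix I27 I27 F) *ᵥ e F (th (dec k) y))
      rw [← hM, hten _ (by rw [p10_e, if_pos hk2])] at h12
      rw [h12, T3_eq, cr_basis_zero (by omega), zero_dotProduct]
    have hinv : ∀ x : I27 → F, M *ᵥ (((g⁻¹ : GL I27 F) : Matrix I27 I27 F) *ᵥ x) = x := fun x => by
      rw [Matrix.mulVec_mulVec, hM, ← Units.val_mul, mul_inv_cancel, Units.val_one, Matrix.one_mulVec]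
    rw [hinv] at h11
    have h13 := th_spec hky
    have h14 : T3 (e F (dec k)) (M *ᵥ e F x) (e F (th (dec k) y)) =
        ((tsN (tn (dec k) (th (dec k) y)) : ℤ) : F) * (M *ᵥ e F x) y := by
      rw [T3_basis h13.2.2.2.2.1, h13.2.2.2.2.2.2]
    rw [h14] at h11
    exact (mul_eq_zero.1 h11).resolve_left (tsN_ne_zero _)
  obtain ⟨d, hd⟩ : ∃ d : I27 → F, ∀ x, d x = (M *ᵥ e F x) x := ⟨_, fun _ => rfl⟩
  have hMe : ∀ x : I27, ty x = 1 → M *ᵥ e F x = d x • e F x := by
    intro x hx
    funext y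
    rw [Pi.smul_apply, smul_eq_mul, e_apply]
    by_cases h : y = x
    · subst h; rw [if_pos rfl, mul_one, hd]
    · rw [if_neg h, mul_zero, hcoord x hx y h]
  have hdd : ∀ x y : I27, ty x = 1 → ty y = 1 → rel x y = 2 → d x * d y = 1 := by
    intro x y hx hy h
    have h3 := allLt_spec (allLt_spec tab_th1 _ (code_lt x)) _ (code_lt y)
    simp only [Bool.or_eq_true, beq_iff_eq, Bool.not_eq_true', beq_eq_false_iff_ne] at h3
    have h4 : ty (th x y) = 2 := by
      unfold ty
      rw [code_th h]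
      rcases h3 with ((h3 | h3) | h3) | h3
      · exact absurd hx h3
      · exact absurd hy h3
      · exact absurd h h3
      · exact h3
    have h5 := T3_inv hg (e F x) (e F (th x y)) (e F y)
    rw [← hM, hten (e F (th x y)) (by rw [p10_e, if_pos h4]), hMe x hx, hMe y hy, T3_smul_left, T3_smul_right, T3_basis h,
      e_apply, if_pos rfl, mul_one] at h5
    have h6 : (d x * d y - 1) * ((tsN (tn x y) : ℤ) : F) = 0 := by linear_combination h5
    exact sub_eq_zero.1 ((mul_eq_zero.1 h6).resolve_right (tsN_ne_zero _))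
  have t1 : ty (dec 1) = 1 := by decide +kernel
  have t2 : ty (dec 2) = 1 := by decide +kernel
  have t15 : ty (dec 15) = 1 := by decide +kernel
  have ta : ∀ a ∈ [3, 6, 12, 13, 14], ty (dec a) = 1 ∧ rel (dec 1) (dec a) = 2 := by decide +kernel
  have hn : ∀ a ∈ [3, 6, 12, 13, 14], d (dec 1) * d (dec a) = 1 := fun a ha =>
    hdd _ _ t1 (ta a ha).1 (ta a ha).2
  have hn3 := hn 3 (by decide)
  have hn13 := hn 13 (by decide)
  have r32 : rel (dec 3) (dec 2) = 2 := by decide +kernel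
  have r1315 : rel (dec 13) (dec 15) = 2 := by decide +kernel
  have r215 : rel (dec 2) (dec 15) = 2 := by decide +kernel
  have h32 := hdd _ _ (ta 3 (by decide)).1 t2 r32
  have h1315 := hdd _ _ (ta 13 (by decide)).1 t15 r1315
  have h215 := hdd _ _ t2 t15 r215
  have e2 : d (dec 2) = d (dec 1) := by
    linear_combination d (dec 1) * h32 - d (dec 2) * hn3
  have e15 : d (dec 15) = d (dec 1) := by
    linear_combination d (dec 1) * h1315 - d (dec 15) * hn13
  have hsq : d (dec 1) * d (dec 1) = 1 := by rw [e2, e15] at h215; exact h215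
  have hinv' : ∀ b : F, d (dec 1) * b = 1 → b = d (dec 1) := fun b hb => by
    linear_combination d (dec 1) * hb - b * hsq
  have hconst : ∀ x : I27, ty x = 1 → d x = d (dec 1) := by
    intro x hx
    have h3 := allLt_spec tab_path _ (code_lt x)
    simp only [Bool.or_eq_true, beq_iff_eq, Bool.not_eq_true', beq_eq_false_iff_ne, List.any_eq_true] at h3
    rcases h3 with (h3 | h3) | ⟨a, ha, h3⟩
    · exact absurd hx h3
    · refine hinv' _ (hdd _ _ t1 hx ?_)
      unfold rel
      rw [code_dec (by norm_num)]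
      exact h3
    · have h4 : rel (dec a) x = 2 := by
        unfold rel
        rw [code_dec (by
          have : ∀ a ∈ [3, 6, 12, 13, 14], a < 27 := by decide
          exact this a ha)]
        exact h3
      have h5 := hdd _ _ (ta a ha).1 hx h4
      have h6 := hn a ha
      linear_combination d (dec 1) * h5 - d x * h6
  -- conclusion
  have hfin : ∀ x, M *ᵥ x = x i0 • e F i0 + p10 x + d (dec 1) • p16 x := by
    intro x
    have h16 : ∀ y : I27 → F, M *ᵥ p16 y - d (dec 1) • p16 y = 0 := by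
      intro y
      refine lin_zero (f := fun y : I27 → F => M *ᵥ p16 y - d (dec 1) • p16 y) (fun a b => by
        simp only [p16_add, Matrix.mulVec_add, smul_add]; abel) (fun c a => by
        simp only [p16_smul, Matrix.mulVec_smul, smul_sub, smul_comm c]) (fun k => ?_) y
      show M *ᵥ p16 (e F k) - d (dec 1) • p16 (e F k) = 0
      rw [p16_e]
      split_ifs with hk
      · rw [hMe k hk, hconst k hk, sub_self]
      · simp
    conv_lhs => rw [decomp x]
    rw [Matrix.mulVec_add, Matrix.mulVec_add, Matrix.mulVec_smul, hae, hten _ (p10_p10 x),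
      sub_eq_zero.1 (h16 x)]
  have hext : ∀ g' : GL I27 F, (∀ x, (g' : Matrix I27 I27 F) *ᵥ x = M *ᵥ x) → g = g' := by
    intro g' h
    apply Units.ext
    apply Matrix.toLin'.injective
    refine LinearMap.ext fun x => ?_
    rw [Matrix.toLin'_apply, Matrix.toLin'_apply]
    exact (h x).symm
  have h7 : (d (dec 1) - 1) * (d (dec 1) + 1) = 0 := by linear_combination hsq
  rcases mul_eq_zero.1 h7 with h8 | h8
  · left
    refine hext 1 fun x => ?_
    rw [hfin, sub_eq_zero.1 h8, one_smul, Units.val_one, Matrix.one_mulVec]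
    exact decomp x
  · right
    refine hext (z0 F) fun x => ?_
    rw [hfin, z0_mulVec, eq_neg_of_add_eq_zero_left h8]
    conv_lhs => rw [decomp x]
    rw [p16_add, p16_add, p16_p16, p16_smul, p16_e, ty_i0, if_neg (by norm_num), smul_zero, zero_add]
    have h3 : p16 (p10 x) = 0 := by
      funext i; simp only [p10, p16]
      split_ifs with a b
      · omega
      · rfl
      · rfl
    rw [h3, zero_add, two_smul, neg_one_smul]
    abel

end Cfsg.Agent.H512.DFive
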